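import Cfsg.Agent.H129.CycCardF
import Cfsg.Agent.H129.CycRow

/-!
# `²F₄(8)`: the elements of order 19, 37, 109 (S2452)

* `card_cent_19` : `|C(x)| = 57` and `C(x)` cyclic for every `x` of order 19;
* `exists_19`.
-/

set_option autoImplicit false

namespace Cfsg.Agent.H84.TF5

open Cfsg Cfsg.Lie Cfsg.Agent.H129.CycCard Cfsg.Agent.H129.CycT Cfsg.Agent.H129

universe u

/-- centralizers of elements of prime order `r` from `CycCard` -/
theorem cent_of_cycCard {G : Type*} [Group G] [Finite G] {r m : ℕ} (hr : r.Prime) (h : CycCard G r m 1) :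
    (∃ x : G, orderOf x = r) ∧ ∀ x : G, orderOf x = r → IsCyclic ↥(Subgroup.centralizer ({x} : Set G)) ∧
      Nat.card ↥(Subgroup.centralizer ({x} : Set G)) = m := by
  obtain ⟨T, h1, h2, h3, h4, h5⟩ := h
  have : Fact r.Prime := ⟨hr⟩
  have hT : Nat.card ↥T = m := Nat.dvd_antisymm h2 (by rwa [one_mul] at h3)
  refine ⟨?_, fun x hx => ?_⟩
  · obtain ⟨y, hy⟩ := exists_prime_orderOf_dvd_card' (G := ↥T) r h4
    exact ⟨y, by rw [← hy]; exact orderOf_injective T.subtype T.subtype_injective y⟩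
  · obtain ⟨g, -, hg⟩ := centralizer_conj h1 hr h4 h5 hx
    have he : Subgroup.centralizer ({x} : Set G) = T.comap (MulAut.conj g).toMonoidHom := by
      ext z
      rw [hg z]
      rfl
    let e : ↥(Subgroup.centralizer ({x} : Set G)) ≃* ↥T :=
      { toFun := fun z => ⟨g * z * g⁻¹, (hg z).1 z.2⟩
        invFun := fun t => ⟨g⁻¹ * t * g, (hg _).2 (by
          have : g * (g⁻¹ * (t : G) * g) * g⁻¹ = t := by group
          rw [this]; exact t.2)⟩
        left_inv := fun z => Subtype.ext (by show g⁻¹ * (g * (z : G) * g⁻¹) * g = z; group)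
        right_inv := fun t => Subtype.ext (by show g * (g⁻¹ * (t : G) * g) * g⁻¹ = t; group)
        map_mul' := fun a b => Subtype.ext (by
          show g * ((a : G) * b) * g⁻¹ = (g * a * g⁻¹) * (g * b * g⁻¹); group) }
    exact ⟨e.isCyclic.2 h1, by rw [← hT]; exact Nat.card_congr e.toEquiv⟩

variable {K : Type u} [Field K] [Fintype K]

/-- `²F₄(8)`: elements of order 19 -/
theorem nineteen (hK : Fintype.card K = 8) : (∃ x : ↥(twistedF4 K (2 ^ 1)), orderOf x = 19) ∧
    ∀ x : ↥(twistedF4 K (2 ^ 1)), orderOf x = 19 →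
      IsCyclic ↥(Subgroup.centralizer ({x} : Set ↥(twistedF4 K (2 ^ 1)))) ∧
      Nat.card ↥(Subgroup.centralizer ({x} : Set ↥(twistedF4 K (2 ^ 1)))) = 57 :=
  cent_of_cycCard (by norm_num) (card_tF4_6 (m := 1) (by rw [hK]; norm_num) (N := 57) (by norm_num) (r := 19) (by norm_num)
    (by norm_num) (by norm_num))

end Cfsg.Agent.H84.TF5
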